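import Mathlib

/-! Fixed point counts that exclude a doubly transitive action of a group of order `17971200`. -/

set_option autoImplicit false
set_option maxRecDepth 100000

namespace CF.Tits

open MulAction
open scoped Pointwise

variable {G Ω : Type*} [Group G] [MulAction G Ω]

theorem ncard_conj (x g : G) : (fixedBy Ω (x * g * x⁻¹)).ncard = (fixedBy Ω g).ncard := by
  rw [← smul_fixedBy, Set.ncard_smul_set]

/-- the sum of the fixed point numbers over a subgroup whose nontrivial elements are conjugate -/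
theorem sum_fixed {X : Subgroup G} [Fintype X] {c : G} (h : ∀ g ∈ X, g ≠ 1 → ∃ x, x * g * x⁻¹ = c) :
    ∑ g : X, (fixedBy Ω g).ncard = Nat.card Ω + (Nat.card X - 1) * (fixedBy Ω c).ncard := by
  classical
  rw [← Finset.add_sum_erase _ _ (Finset.mem_univ 1), fixedBy_one_eq_univ, Set.ncard_univ,
    Finset.sum_congr rfl (g := fun _ => (fixedBy Ω c).ncard), Finset.sum_const, Finset.card_erase_of_mem (by simp),
    Finset.card_univ, Nat.card_eq_fintype_card (α := X), smul_eq_mul]
  intro g hg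
  obtain ⟨x, rfl⟩ := h g g.2 fun e => (Finset.mem_erase.1 hg).1 (Subtype.ext e)
  exact (ncard_conj x (g : G)).symm

theorem dvd_sum_fixed [Finite Ω] (X : Subgroup G) [Fintype X] : Nat.card X ∣ ∑ g : X, (fixedBy Ω g).ncard := by
  classical
  have := Fintype.ofFinite Ω
  have h := sum_card_fixedBy_eq_card_orbits_mul_card_group X Ω
  simp only [← Nat.card_eq_fintype_card, Nat.card_coe_set_eq] at h
  exact ⟨_, h.trans (mul_comm _ _)⟩

theorem sum_fixed_le [Finite Ω] (X : Subgroup G) [Fintype X] {m : ℕ} (h : ∀ w : Ω, Nat.card (stabilizer X w) ≤ m) :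
    ∑ g : X, (fixedBy Ω g).ncard ≤ Nat.card Ω * m := by
  classical
  have := Fintype.ofFinite Ω
  have h1 : ∀ g : X, (fixedBy Ω g).ncard = ∑ w : Ω, if g • w = w then 1 else 0 := fun g => by
    rw [Finset.sum_boole, ← Set.ncard_coe_finset]
    congr 1
    ext
    simp
  have h2 : ∀ w : Ω, (∑ g : X, if g • w = w then 1 else 0) ≤ m := fun w => by
    refine le_trans (le_of_eq ?_) (h w)
    rw [Finset.sum_boole, Nat.card_eq_fintype_card, Fintype.card_subtype]
    simp
  simp only [h1]
  rw [Finset.sum_comm, Nat.card_eq_fintype_card, ← Finset.card_univ, ← smul_eq_mul]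
  exact Finset.sum_le_card_nsmul _ _ _ fun w _ => h2 w

theorem fix_of_two {S : Set Ω} (hS : S.ncard = 2) {g : G} (hg : ∀ w ∈ S, g • w ∈ S) {k : ℕ} (hk : g ^ (2 * k + 1) = 1) :
    ∀ w ∈ S, g • w = w := by
  have key : ∀ x y : Ω, g • x = y → g • y = x → g • x = x := fun x y h1 h2 => by
    have : ∀ j, g ^ (2 * j + 1) • x = y := fun j => by
      induction j with
      | zero => simpa using h1
      | succ j ih => rw [show 2 * (j + 1) + 1 = 1 + (1 + (2 * j + 1)) by ring, pow_add, pow_add, pow_one, mul_smul,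
          mul_smul, ih, h2, h1]
    rw [h1, ← this k, hk, one_smul]
  obtain ⟨x, y, hxy, rfl⟩ := Set.ncard_eq_two.1 hS
  have hx := hg x (by simp)
  have hy := hg y (by simp)
  simp only [Set.mem_insert_iff, Set.mem_singleton_iff, forall_eq_or_imp, forall_eq] at hx hy ⊢
  rcases hx with hx | hx <;> rcases hy with hy | hy
  · exact absurd (smul_left_cancel g (hx.trans hy.symm)) hxy
  · exact ⟨hx, hy⟩
  · exact ⟨key x y hx hy, key y x hy hx⟩
  · exact absurd (smul_left_cancel g (hx.trans hy.symm)) hxy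

/-- the data read from the group -/
def TwoDat (G : Type*) [Group G] : Prop :=
  Nat.card G = 17971200 ∧ ∃ (X R : Subgroup G) (c d e : G), Nat.card X = 27 ∧ Nat.card R = 25 ∧ c ≠ 1 ∧ d ≠ 1 ∧
    (∀ g ∈ X, g ≠ 1 → ∃ x, x * g * x⁻¹ = c) ∧ (∀ g ∈ R, g ≠ 1 → ∃ x, x * g * x⁻¹ = d) ∧ d ^ 5 = 1 ∧ e ≠ 1 ∧ e ^ 3 = 1 ∧
    d * (e * d * e⁻¹) = e * d * e⁻¹ * d

theorem TwoDat.not_two (h : TwoDat G) [Finite Ω] [FaithfulSMul G Ω] (hΩ : 3 ≤ Nat.card Ω) :
    ¬ IsMultiplyPretransitive G Ω 2 := by
  intro h2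
  obtain ⟨hG, X, R, c, d, e, hX, hR, hc, hd, cX, cR, d5, e1, e3, hde⟩ := h
  have : Finite G := Nat.finite_of_card_ne_zero (by omega)
  have := Fintype.ofFinite X
  have := Fintype.ofFinite R
  have hlt : ∀ g : G, g ≠ 1 → (fixedBy Ω g).ncard < Nat.card Ω := fun g hg => by
    rw [← Set.ncard_univ]
    refine Set.ncard_lt_ncard ⟨Set.subset_univ _, fun hs => hg (eq_of_smul_eq_smul (α := Ω) fun w => ?_)⟩
    rw [one_smul]
    exact hs (Set.mem_univ w)
  have h1 : IsPretransitive G Ω := isPretransitive_of_is_two_pretransitive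
  have hst : ∀ w : Ω, Nat.card Ω * Nat.card (stabilizer G w) = 17971200 := fun w => by
    rw [← index_stabilizer_of_transitive G w, Subgroup.index_mul_card, hG]
  obtain ⟨x, y, hxy⟩ : Nontrivial Ω := Finite.one_lt_card_iff_nontrivial.1 (by omega)
  have hn : Nat.card Ω * (Nat.card Ω - 1) ∣ 17971200 := by
    have := IsMultiplyPretransitive.index_of_fixingSubgroup_eq (G := G) {x, y} (by rwa [Set.ncard_pair hxy])
    rw [Set.ncard_pair hxy, Nat.choose_two_right, Nat.factorial_two,
      Nat.div_mul_cancel (Nat.even_mul_pred_self _).two_dvd] at this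
    rw [← this, ← hG]
    exact Subgroup.index_dvd_card _
  have h3 := dvd_sum_fixed (Ω := Ω) X
  have h5 := dvd_sum_fixed (Ω := Ω) R
  rw [sum_fixed cX, hX] at h3
  rw [sum_fixed cR, hR] at h5
  have l3 := hlt c hc
  have l5 := hlt d hd
  have h6 : 25 ∣ 17971200 / Nat.card Ω ∨ 6 * (fixedBy Ω d).ncard ≤ Nat.card Ω := by
    refine or_iff_not_imp_left.2 fun h => ?_
    have := sum_fixed_le (Ω := Ω) R (m := 5) fun w => by
      have h1 : Nat.card (stabilizer R w) ∣ 5 ^ 2 := (Subgroup.card_subgroup_dvd_card _).trans hR.dvd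
      have h2 : Nat.card (stabilizer R w) ∣ Nat.card (stabilizer G w) :=
        Subgroup.card_dvd_of_injective ((R.subtype.comp (Subgroup.subtype _)).codRestrict _ fun g => g.2)
          fun a b e => Subtype.ext (Subtype.ext (Subtype.ext_iff.1 e :))
      obtain ⟨k, hk, e⟩ := (Nat.dvd_prime_pow (by norm_num)).1 h1
      rw [e] at h2 ⊢
      interval_cases k
      · norm_num
      · norm_num
      · exact absurd (by rw [← hst w, Nat.mul_div_cancel_left _ (by omega)]; exact h2) h
    rw [sum_fixed cR, hR] at this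
    omega
  have h7 : Nat.card Ω = 27 → (fixedBy Ω d).ncard ≠ 2 := fun h27 h => by
    have a1 := fix_of_two h (g := e * d * e⁻¹) (k := 2) (fun w hw => by
      rw [mem_fixedBy, ← mul_smul, hde, mul_smul, mem_fixedBy.1 hw]) (by rw [conj_pow, d5]; simp)
    have a2 : fixedBy Ω d = e • fixedBy Ω d :=
      Set.eq_of_subset_of_ncard_le (by rw [smul_fixedBy]; exact a1) (Set.ncard_smul_set _ _).le
    have a3 := fix_of_two h (g := e) (k := 1) (fun w hw => a2 ▸ Set.smul_mem_smul_set hw) e3
    obtain ⟨w, hw⟩ := Set.nonempty_of_ncard_ne_zero (h.trans_ne (by decide))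
    have a4 : orderOf e ∣ Nat.card (stabilizer G w) := Subgroup.orderOf_dvd_natCard _ (a3 w hw)
    have a5 := hst w
    rw [orderOf_eq_prime e3 e1] at a4
    rw [h27] at a5
    omega
  generalize Nat.card Ω = n at *
  have hn' : n ≤ 4240 := by
    have := Nat.le_of_dvd (by norm_num) hn
    by_contra hh
    have : 4241 * 4240 ≤ n * (n - 1) := Nat.mul_le_mul (by omega) (by omega)
    omega
  have : n = 27 ∨ n = 40 ∨ n = 65 :=
    (by decide +kernel : ∀ n < 4241, 27 ≤ n → n * (n - 1) ∣ 17971200 → n = 27 ∨ n = 40 ∨ n = 65) n (by omega)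
      (by omega) hn
  rcases this with rfl | rfl | rfl <;> omega

end CF.Tits
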