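import Cfsg.Agent.Schur.Nf
import Cfsg.Agent.Schur.Tits
import Cfsg.Agent.Tits.Act

/-! The Tits group has no doubly transitive action. -/

set_option autoImplicit false
set_option maxRecDepth 1000000
set_option maxHeartbeats 400000
set_option Elab.async false

namespace CF.Tits

open CF.Comp CF.Schur.Pc CF.Schur.Tits Cfsg

def cj3 : List (List ℕ) := [[30, 25, 9, 11, 10, 12, 18, 14, 20, 18, 29, 37, 33, 35],
  [11, 20, 12, 12, 10, 18, 14, 19, 18, 25, 37, 35],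
  [12, 10, 16, 11, 17, 13, 19, 18, 23, 26, 26, 29, 33, 35],
  [17, 11, 11, 11, 13, 19, 18, 29, 37, 33],
  [11, 9, 12, 26, 26, 37],
  [15, 9, 13, 9, 11, 18, 14, 19, 25, 29, 37, 35],
  [11, 9, 15, 9, 12, 16, 18, 18, 33, 35],
  [19, 12, 10, 10, 12, 16, 17, 25, 23, 29, 37, 33],
  [],
  [10, 10, 12, 10, 13, 17, 13, 18, 26, 26, 29],
  [11, 9, 17, 10, 10, 16, 19, 23, 26, 26, 29, 37, 35],
  [21, 12, 10, 12, 13, 35],
  [15, 9, 14, 10, 10, 16, 23, 17, 26, 23],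
  [12, 9, 11, 9, 12, 16, 23, 17, 25, 23],
  [10, 12, 14, 9, 11, 15, 23, 37, 33, 35],
  [12, 12, 17, 13, 29],
  [25, 12, 18, 10, 10, 10, 14, 14, 23, 17, 26, 23, 33],
  [11, 10, 10, 16, 9, 17, 13, 20, 18, 23, 29, 37, 33],
  [27, 18, 11, 11, 10, 12, 16, 20, 18, 26, 33],
  [10, 16, 19, 25, 23, 29, 37, 33, 35],
  [14, 14, 11, 9, 11, 17, 13, 20, 18, 29, 35],
  [25, 9, 9, 11, 10, 13, 17, 13, 20, 18, 26, 26, 29, 33],
  [9, 9, 19, 12, 10, 13, 18, 18, 26, 23, 37, 33, 35],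
  [14, 10, 10, 12, 18, 23, 37, 33, 35],
  [9, 25, 12, 10, 10, 16, 14, 19, 26, 26, 29],
  [12, 10, 23, 12, 12, 17, 13, 18, 18, 23, 29, 37, 33, 35]]

def cj5 : List (List ℕ) := [[7, 7, 10, 8, 9, 12, 12, 17, 16, 23, 21, 27, 35, 31],
  [7, 7, 9, 9, 14, 18, 16, 24, 21, 27, 35, 31, 33],
  [10, 16, 7, 7, 10, 12, 12, 21, 15, 24, 24, 27, 35, 33],
  [7, 11, 10, 10, 8, 24, 33],
  [],
  [9, 18, 10, 8, 11, 15, 11, 16, 31],
  [9, 7, 10, 16, 16],
  [10, 8, 8, 8, 14, 17, 24, 24, 27, 35, 33],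
  [8, 10, 8, 11, 15, 11, 18, 16, 23, 27, 35],
  [13, 23, 7, 7, 9, 12, 12, 15, 23, 27, 31],
  [13, 10, 8, 8, 16, 12, 16, 21, 24, 24, 27, 35, 33],
  [7, 15, 7, 7, 9, 14, 12, 21, 27, 35, 31],
  [9, 8, 10, 14, 9, 11, 16, 24, 33],
  [10, 10, 14, 7, 12, 17, 16, 24, 27],
  [7, 7, 7, 14, 7, 12, 12, 18, 16, 21, 27, 35],
  [23, 9, 9, 9, 12, 12, 17, 16, 24, 31, 33],
  [7, 7, 9, 14, 18, 16, 21, 27, 31],
  [13, 7, 7, 9, 11, 15, 11, 16, 16, 23, 35, 31],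
  [10, 13, 9, 8, 14, 12, 21, 15, 21, 27, 31, 33],
  [12, 7, 7, 7, 7, 16, 12, 17, 21, 24, 24, 27, 33],
  [21, 10, 10, 12, 12, 17, 16, 24, 27, 35, 31, 33],
  [8, 24, 12, 9, 7, 10, 17, 16, 23, 35, 31],
  [9, 7, 21, 10, 10, 11, 15, 11, 35, 31, 33],
  [10, 13, 8, 8, 10, 13, 17, 33]]

def we : List ℕ := [27, 12, 8, 8, 10, 12, 12, 18, 16, 24, 21, 31, 33]

theorem mdl3 : Mdl D (lapp Nx3 N) (app 4 (evs f Wx3) f) T (lmap Lvl.b C) :=
  (mdl.new (k := 11) (l := 4) (by decide) wx3 (by decide +kernel) (by decide +kernel) qx3).app mdl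

theorem mdl5 : Mdl D (lapp Nx5 N) (app 3 (evs f Wx5) f) T (lmap Lvl.b C) :=
  (mdl.new (k := 11) (l := 3) (by decide) wx5 (by decide +kernel) (by decide +kernel) qx5).app mdl

theorem twoDat_of {G Ω : Type*} [Group G] [MulAction G Ω] {n : ℕ} {D : CF.Comp.Dom Ω n} {H : Subgroup G} {bs : List ℕ}
    {N3 N5 : List Net} {f3 f5 : ℕ → G} (h3 : Mdl D N3 f3 H bs) (h5 : Mdl D N5 f5 H bs) (hn : 0 < n)
    (hc : Nat.card H = 17971200) (r3 : allFrom (relRow (sameB N3 bs) 0 Px3) 0 3 = true) (l3 : lowOK N3 n 0 Px3 Lx3 = true)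
    (c3 : cjAll (sameB N3 bs) 0 Px3 [1] cj3 = true) (r5 : allFrom (relRow (sameB N5 bs) 0 Px5) 0 2 = true)
    (l5 : lowOK N5 n 0 Px5 Lx5 = true) (c5 : cjAll (sameB N5 bs) 0 Px5 [1] cj5 = true)
    (n3 : sameW N3 n 11 [1] [] = false) (n5 : sameW N5 n 11 [1] [] = false) (ne : sameW N5 n 11 we [] = false)
    (d5 : sameB N5 bs (wpow [1] 5) [] = true) (e3 : sameB N5 bs (wpow we 3) [] = true)
    (de : sameB N5 bs (lapp [1] (lapp (lapp we [1]) (winv we))) (lapp (lapp (lapp we [1]) (winv we)) [1]) = true) :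
    TwoDat H := by
  have : Finite H := Nat.finite_of_card_ne_zero (by omega)
  obtain ⟨X, hX, cX⟩ := h3.exists_cj h3.sameB r3 (by decide +kernel) (by decide) l3 c3
  obtain ⟨R, hR, cR⟩ := h5.exists_cj h5.sameB r5 (by decide +kernel) (by decide) l5 c5
  have n3 := h3.reps.ne_of_sameW hn n3
  have n5 := h5.reps.ne_of_sameW hn n5
  have ne := h5.reps.ne_of_sameW hn ne
  have d5 := h5.sameB _ _ d5
  have e3 := h5.sameB _ _ e3
  have de := h5.sameB _ _ de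
  simp only [ev_wpow, ev_lapp, ev_winv, ev_nil] at n3 n5 ne d5 e3 de
  exact ⟨hc, X, R, _, _, ⟨_, ev_mem h5.mem we⟩, hX, hR, fun e => n3 (Subtype.ext_iff.1 e :),
    fun e => n5 (Subtype.ext_iff.1 e :), cX, cR, Subtype.ext d5, fun e => ne (Subtype.ext_iff.1 e :), Subtype.ext e3,
    Subtype.ext de⟩

theorem twoDat : TwoDat T :=
  twoDat_of mdl3 mdl5 (by decide) card (by decide +kernel) (by decide +kernel) (by decide +kernel) (by decide +kernel)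
    (by decide +kernel) (by decide +kernel) (by decide +kernel) (by decide +kernel) (by decide +kernel)
    (by decide +kernel) (by decide +kernel) (by decide +kernel)

theorem twoDat' : TwoDat Lie.TitsGroup := by
  show TwoDat (commutator U)
  rw [commutator_eq]
  exact twoDat

end CF.Tits
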